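import Mathlib
import Cfsg.Agent.Lib.LargeExtra.Pair
import Cfsg.Agent.Lib.Components.GenFitting
import Cfsg.Agent.Lib.Components.Basic
import Cfsg.Agent.Lib.RankOne.OddInvert
import Cfsg.Agent.Lib.Core.Basic

/-!
The extraspecial `F*`-setting gives an `LX`-subgroup; odd-order subgroups normalized by `Q`.
-/

set_option autoImplicit false
set_option linter.unusedSectionVars false
set_option linter.unusedVariables false
set_option linter.style.longLine false
set_option linter.unusedSimpArgs false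
set_option linter.unnecessarySimpa false

namespace Cfsg.Agent.Lib.LargeExtra.FStar

open Cfsg.Agent.Lib.LargeExtra.Basic Cfsg.Agent.Lib.LargeExtra.Pair
open scoped commutatorElement

variable {G : Type*} [Group G] [Finite G]

theorem lx_of_three {Q : Subgroup G} {z : G} (hex : Cfsg.IsExtraspecial 2 ↥Q)
    (hcent : Subgroup.centralizer (Q : Set G) = (Subgroup.center Q).map Q.subtype)
    (hnorm : Subgroup.centralizer (((Subgroup.center Q).map Q.subtype : Subgroup G) : Set G) ≤ Subgroup.normalizer (Q : Set G))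
    (hz : (Subgroup.center ↥Q).map Q.subtype = Subgroup.zpowers z) (hz2 : orderOf z = 2) : LX z Q := by
  have hzz : z * z = 1 := by
    have := pow_orderOf_eq_one z
    rwa [hz2, pow_two] at this
  have hz1 : z ≠ 1 := by
    rintro rfl
    simp at hz2
  have hzp : ∀ x, x ∈ Subgroup.zpowers z → x = 1 ∨ x = z := by
    rintro x ⟨k, rfl⟩
    have h2z : z ^ (2 : ℤ) = 1 := by
      rw [zpow_ofNat, pow_two, hzz]
    rcases Int.emod_two_eq_zero_or_one k with h | h
    · left
      simp only
      rw [← Int.emod_add_mul_ediv k 2, h, zero_add, zpow_mul, h2z, one_zpow]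
    · right
      simp only
      rw [← Int.emod_add_mul_ediv k 2, h, zpow_add, zpow_mul, h2z, one_zpow, zpow_one, mul_one]
  have hzmem : z ∈ (Subgroup.center ↥Q).map Q.subtype := by
    rw [hz]; exact Subgroup.mem_zpowers z
  obtain ⟨zz, hzzc, hzze⟩ := hzmem
  have hzQ : z ∈ Q := by rw [← hzze]; exact zz.2
  have hcenter : ∀ a : ↥Q, a ∈ Subgroup.center ↥Q → (a : G) = 1 ∨ (a : G) = z := by
    intro a ha
    exact hzp _ (by rw [← hz]; exact ⟨a, ha, rfl⟩)
  have hcentral : ∀ a ∈ Q, a * z = z * a := by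
    intro a ha
    have := Subgroup.mem_center_iff.1 hzzc ⟨a, ha⟩
    have h2 := congrArg Subtype.val this
    simp only [Subgroup.coe_mul] at h2
    have h3 : (zz : G) = z := hzze
    rw [h3] at h2
    exact h2
  have hP2 : IsPGroup 2 ↥Q := hex.1.1
  have hF : Fact (Nat.Prime 2) := ⟨Nat.prime_two⟩
  refine ⟨⟨hzQ, hz1, hzz, hcentral, ?_, ?_⟩, ?_, ?_, ?_⟩
  · intro a ha b hb
    have hmem : (⟨a, ha⟩ : ↥Q) * ⟨b, hb⟩ * (⟨a, ha⟩ : ↥Q)⁻¹ * (⟨b, hb⟩ : ↥Q)⁻¹ ∈ Subgroup.center ↥Q := by
      rw [← hex.1.2.2]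
      exact Subgroup.commutator_mem_commutator (Subgroup.mem_top _) (Subgroup.mem_top _)
    simpa using hcenter _ hmem
  · intro a ha hc
    apply hcenter ⟨a, ha⟩
    rw [Subgroup.mem_center_iff]
    intro b
    exact Subtype.ext (hc b b.2).symm
  · intro a ha
    have h1 := Cfsg.Agent.Lib.PGroups.Basic.pow_mem_frattini hP2 (⟨a, ha⟩ : ↥Q)
    rw [hex.1.2.1] at h1
    have h2 := hcenter _ h1
    simpa [pow_two] using h2
  · intro x hx
    have h1 : x ∈ Subgroup.centralizer (Q : Set G) := by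
      rw [Subgroup.mem_centralizer_iff]
      intro a ha
      exact (hx a ha).symm
    rw [hcent, hz] at h1
    exact hzp x h1
  · intro x hx a ha
    have h1 : x ∈ Subgroup.centralizer (((Subgroup.center ↥Q).map Q.subtype : Subgroup G) : Set G) := by
      rw [Subgroup.mem_centralizer_iff, hz]
      intro h hh
      obtain ⟨k, rfl⟩ := hh
      exact ((show Commute x z from hx).zpow_right k).eq.symm
    have h2 := hnorm h1
    rw [Subgroup.mem_normalizer_iff] at h2
    exact (h2 a).1 ha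

/-- The `F*`-setting: facts about `Q`. -/
theorem fstar_facts {Q : Subgroup G} {z : G} (hz : orderOf z = 2)
    (hF : (Cfsg.generalizedFittingSubgroup ↥(Subgroup.centralizer ({z} : Set G))).map (Subgroup.centralizer ({z} : Set G)).subtype = Q)
    (hQ : Cfsg.IsExtraspecial 2 ↥Q) :
    (Subgroup.center ↥Q).map Q.subtype = Subgroup.zpowers z ∧
    Subgroup.centralizer (Q : Set G) = (Subgroup.center Q).map Q.subtype ∧
    Subgroup.centralizer (((Subgroup.center Q).map Q.subtype : Subgroup G) : Set G) ≤ Subgroup.normalizer (Q : Set G) := by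
  classical
  set C := Subgroup.centralizer ({z} : Set G) with hC
  have hzC : z ∈ C := by
    rw [hC, Subgroup.mem_centralizer_iff]
    rintro _ rfl
    rfl
  have hmemC : ∀ x, x ∈ C ↔ x * z = z * x := by
    intro x
    rw [hC, Subgroup.mem_centralizer_iff]
    simp only [Set.mem_singleton_iff, forall_eq]
    exact eq_comm
  have hzz : z * z = 1 := by
    have := pow_orderOf_eq_one z
    rwa [hz, pow_two] at this
  have hz1 : z ≠ 1 := by
    rintro rfl
    simp at hz
  -- `z ∈ Q`
  have hQC : Q ≤ C := by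
    rw [← hF]
    rintro _ ⟨a, -, rfl⟩
    exact a.2
  have hzQ : z ∈ Q := by
    rw [← hF]
    refine ⟨⟨z, hzC⟩, ?_, rfl⟩
    have hcen : (⟨z, hzC⟩ : C) ∈ Subgroup.center C := by
      rw [Subgroup.mem_center_iff]
      intro g
      apply Subtype.ext
      exact (hmemC g).1 g.2
    have hle : Subgroup.center C ≤ Cfsg.fittingSubgroup C :=
      Cfsg.Agent.Lib.Core.Basic.le_fittingSubgroup (inferInstance)
        (by
          letI : CommGroup ↥(Subgroup.center C) :=
            { (inferInstance : Group ↥(Subgroup.center C)) with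
              mul_comm := fun a b => Subtype.ext (Subgroup.mem_center_iff.1 b.2 a) }
          exact CommGroup.isNilpotent)
    exact (le_sup_right : Cfsg.fittingSubgroup C ≤ Cfsg.generalizedFittingSubgroup C) (hle hcen)
  have hcent1 : ∀ a ∈ Q, a * z = z * a := fun a ha => (hmemC a).1 (hQC ha)
  -- `Z(Q) = ⟨z⟩`
  have hzcenter : (⟨z, hzQ⟩ : Q) ∈ Subgroup.center ↥Q := by
    rw [Subgroup.mem_center_iff]
    intro g
    exact Subtype.ext (hcent1 g g.2)
  have hcard := hQ.2
  have hZ : (Subgroup.center ↥Q).map Q.subtype = Subgroup.zpowers z := by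
    have hle : Subgroup.zpowers z ≤ (Subgroup.center ↥Q).map Q.subtype := by
      rw [Subgroup.zpowers_le]
      exact ⟨⟨z, hzQ⟩, hzcenter, rfl⟩
    symm
    apply Subgroup.eq_of_le_of_card_ge hle
    rw [Subgroup.card_map_of_injective Q.subtype_injective, hcard, Nat.card_zpowers, hz]
  refine ⟨hZ, ?_, ?_⟩
  · apply le_antisymm
    · intro x hx
      rw [Subgroup.mem_centralizer_iff] at hx
      have hxz : x * z = z * x := (hx z hzQ).symm
      have hxC : x ∈ C := (hmemC x).2 hxz
      have h1 : (⟨x, hxC⟩ : C) ∈ Cfsg.generalizedFittingSubgroup C := by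
        apply Cfsg.Agent.Lib.Components.GenFitting.centralizer_generalizedFitting_le
        rw [Subgroup.mem_centralizer_iff]
        intro y hy
        apply Subtype.ext
        have hyQ : (y : G) ∈ Q := by rw [← hF]; exact ⟨y, hy, rfl⟩
        exact hx y hyQ
      have hxQ : x ∈ Q := by rw [← hF]; exact ⟨_, h1, rfl⟩
      refine ⟨⟨x, hxQ⟩, ?_, rfl⟩
      rw [SetLike.mem_coe, Subgroup.mem_center_iff]
      intro g
      exact Subtype.ext (hx g g.2)
    · rintro _ ⟨a, ha, rfl⟩
      rw [Subgroup.mem_centralizer_iff]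
      intro y hy
      have := Subgroup.mem_center_iff.1 ha ⟨y, hy⟩
      exact congrArg Subtype.val this
  · intro x hx
    rw [hZ, Subgroup.mem_centralizer_iff] at hx
    have hxz : x * z = z * x := (hx z (Subgroup.mem_zpowers z)).symm
    have hxC : x ∈ C := (hmemC x).2 hxz
    rw [Subgroup.mem_normalizer_iff]
    intro y
    have hn : (Cfsg.generalizedFittingSubgroup C).Normal := Cfsg.Agent.Lib.Components.Basic.generalizedFitting_normal
    constructor
    · intro hy
      have hy' : y ∈ (Cfsg.generalizedFittingSubgroup C).map C.subtype := by rw [hF]; exact hy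
      obtain ⟨y', hy', rfl⟩ := hy'
      have := hn.conj_mem y' hy' ⟨x, hxC⟩
      rw [← hF]
      exact ⟨_, this, rfl⟩
    · intro hy
      have hyC : x * y * x⁻¹ ∈ C := hQC hy
      have hy2 : y ∈ C := by
        have : y = x⁻¹ * (x * y * x⁻¹) * x := by group
        rw [this]
        exact mul_mem (mul_mem (inv_mem hxC) hyC) hxC
      have hy' : x * y * x⁻¹ ∈ (Cfsg.generalizedFittingSubgroup C).map C.subtype := by rw [hF]; exact hy
      obtain ⟨y', hy', hye⟩ := hy'
      have := hn.conj_mem y' hy' (⟨x, hxC⟩)⁻¹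
      rw [← hF]
      refine ⟨_, this, ?_⟩
      simp only [Subgroup.coe_subtype, Subgroup.coe_mul, Subgroup.coe_inv, inv_inv]
      have h3 : (y' : G) = x * y * x⁻¹ := hye
      rw [h3]
      group

theorem lx_of_fstar {Q : Subgroup G} {z : G} (hz : orderOf z = 2)
    (hF : (Cfsg.generalizedFittingSubgroup ↥(Subgroup.centralizer ({z} : Set G))).map (Subgroup.centralizer ({z} : Set G)).subtype = Q)
    (hQ : Cfsg.IsExtraspecial 2 ↥Q) : LX z Q := by
  obtain ⟨h1, h2, h3⟩ := fstar_facts hz hF hQ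
  exact lx_of_three hQ h2 h3 h1 hz

/-- An element of a 2-subgroup and an odd-order subgroup is trivial. -/
theorem eq_one_of_mem_odd {T K : Subgroup G} (hT : IsPGroup 2 ↥T) (hK : Odd (Nat.card ↥K)) {x : G}
    (hxT : x ∈ T) (hxK : x ∈ K) : x = 1 := by
  obtain ⟨n, hn⟩ := hT ⟨x, hxT⟩
  have h1 : x ^ 2 ^ n = 1 := congrArg Subtype.val hn
  have h2 : x ^ Nat.card K = 1 := Cfsg.Agent.Lib.RankOne.OddInvert.pow_card_sub hxK
  have h3 := pow_gcd_eq_one.2 ⟨h1, h2⟩
  have h4 : Nat.gcd (2 ^ n) (Nat.card K) = 1 := Nat.Coprime.pow_left n hK.coprime_two_left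
  rw [h4, pow_one] at h3
  exact h3

/-- No nontrivial odd-order subgroup is normalized by `Q`, given a suitable non-central involution `y`. -/
theorem no_odd {Q : Subgroup G} {z y : G} (hL : LX z Q) (hy : y ∈ Q) (hyy : y * y = 1) (hy1 : y ≠ 1) (hyz : y ≠ z)
    {T : Subgroup G} (hT : IsPGroup 2 ↥T) (hzT : z ∈ T) (hyT : ∀ x, x * y = y * x → ∀ a ∈ T, x * a * x⁻¹ ∈ T)
    {K₀ : Subgroup G} (hK : Odd (Nat.card ↥K₀)) (hn : Q ≤ Subgroup.normalizer (K₀ : Set G)) : K₀ = ⊥ := by
  have hconj : ∀ q ∈ Q, ∀ k ∈ K₀, q * k * q⁻¹ ∈ K₀ := fun q hq k hk =>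
    (Subgroup.mem_normalizer_iff.1 (hn hq) k).1 hk
  -- Step 1
  have hQ2 := hL.isPGroup
  have step1 : ∀ k ∈ K₀, k * z = z * k → k = 1 := by
    intro k hk hkz
    have hc : ∀ q ∈ Q, k * q = q * k := by
      intro q hq
      have h1 : k * q * k⁻¹ * q⁻¹ ∈ Q := mul_mem (hL.norm k hkz q hq) (inv_mem hq)
      have h2 : k * q * k⁻¹ * q⁻¹ ∈ K₀ := by
        have e : k * q * k⁻¹ * q⁻¹ = k * (q * k⁻¹ * q⁻¹) := by group
        rw [e]
        exact mul_mem hk (hconj q hq _ (inv_mem hk))
      have h3 := eq_one_of_mem_odd hQ2 hK h1 h2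
      exact (Cfsg.Agent.Lib.LargeExtra.Duality.comm_eq_one_iff k q).1 h3
    rcases hL.cent k hc with h1 | h1
    · exact h1
    · exfalso
      apply hL.ne_one
      rw [h1] at hk
      exact Cfsg.Agent.Lib.RankOne.OddInvert.eq_one_of_sq hK hk hL.sq
  -- Step 2
  have hzQ := hL.mem
  have step2 : ∀ k ∈ K₀, k * y = y * k → k = 1 := by
    intro k hk hky
    apply step1 k hk
    have h1 : k * z * k⁻¹ * z⁻¹ ∈ T := mul_mem (hyT k hky z hzT) (inv_mem hzT)
    have h2 : k * z * k⁻¹ * z⁻¹ ∈ K₀ := by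
      have e : k * z * k⁻¹ * z⁻¹ = k * (z * k⁻¹ * z⁻¹) := by group
      rw [e]
      exact mul_mem hk (hconj z hzQ _ (inv_mem hk))
    have h3 := eq_one_of_mem_odd hT hK h1 h2
    exact (Cfsg.Agent.Lib.LargeExtra.Duality.comm_eq_one_iff k z).1 h3
  -- Step 3
  obtain ⟨u, hu, huy⟩ := hL.exists_comm hy hy1 hyz
  have step3 : ∀ k ∈ K₀, k * (z * y) = (z * y) * k → k = 1 := by
    intro k hk hkzy
    have h1 : u⁻¹ * k * u ∈ K₀ := by
      have := hconj u⁻¹ (inv_mem hu) k hk
      simpa using this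
    have h2 : (u⁻¹ * k * u) * y = y * (u⁻¹ * k * u) := by
      calc (u⁻¹ * k * u) * y = u⁻¹ * k * (u * y * u⁻¹) * u := by group
        _ = u⁻¹ * (k * (z * y)) * u := by rw [huy]; group
        _ = u⁻¹ * ((z * y) * k) * u := by rw [hkzy]
        _ = u⁻¹ * ((u * y * u⁻¹) * k) * u := by rw [huy]
        _ = y * (u⁻¹ * k * u) := by group
    have h3 := step2 _ h1 h2
    have : k = u * (u⁻¹ * k * u) * u⁻¹ := by group
    rw [this, h3]; group
  -- Step 4
  have inv_of : ∀ t ∈ Q, t * t = 1 → (∀ k ∈ K₀, k * t = t * k → k = 1) → ∀ x ∈ K₀, t * x * t⁻¹ = x⁻¹ := by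
    intro t ht htt hf x hx
    obtain ⟨a, b, ha, hat, hb, hbt, rfl⟩ := Cfsg.Agent.Lib.RankOne.OddInvert.exists_factor htt hK
      (fun x hx => hconj t ht x hx) hx
    rw [hf a ha hat.symm, one_mul]
    exact hbt
  rw [eq_bot_iff]
  intro x hx
  rw [Subgroup.mem_bot]
  have hzzy : z * y ∈ Q := mul_mem hzQ hy
  have h1 := inv_of z hzQ hL.sq step1 x hx
  have h2 := inv_of y hy hyy step2 x hx
  apply step3 x hx
  have e1 : (z * y) * x * (z * y)⁻¹ = x := by
    calc (z * y) * x * (z * y)⁻¹ = z * (y * x * y⁻¹) * z⁻¹ := by group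
      _ = z * x⁻¹ * z⁻¹ := by rw [h2]
      _ = (z * x * z⁻¹)⁻¹ := by group
      _ = x := by rw [h1, inv_inv]
  calc x * (z * y) = (z * y) * (((z * y)⁻¹) * x * (z * y)) := by group
    _ = (z * y) * x := by
      have : ((z * y)⁻¹) * x * (z * y) = x := by
        nth_rewrite 1 [← e1]
        group
      rw [this]

theorem odd_of_fpf {N : Subgroup G} {z : G} (hzz : z * z = 1) (hn : ∀ n ∈ N, z * n * z⁻¹ ∈ N)
    (hf : ∀ k ∈ N, k * z = z * k → k = 1) : Odd (Nat.card ↥N) := by
  classical
  have hF : Fact (Nat.Prime 2) := ⟨Nat.prime_two⟩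
  let f : Function.End ↥N := fun n => ⟨z * n * z⁻¹, hn n n.2⟩
  have hzi : z⁻¹ = z := inv_eq_of_mul_eq_one_left hzz
  have hf2 : f ^ 2 ^ 1 = 1 := by
    rw [pow_one, pow_two]
    funext y
    apply Subtype.ext
    show z * (z * y * z⁻¹) * z⁻¹ = y
    have : z * (z * (y : G) * z⁻¹) * z⁻¹ = (z * z) * y * (z⁻¹ * z⁻¹) := by group
    rw [this, hzz, hzi, hzz]; group
  have _ : Fintype ↥N := Fintype.ofFinite _
  have hmod := Equiv.Perm.card_fixedPoints_modEq (p := 2) (n := 1) (f := f) hf2
  have hfix : Fintype.card (Function.fixedPoints f) = 1 := by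
    rw [Fintype.card_eq_one_iff]
    refine ⟨⟨1, ?_⟩, ?_⟩
    · apply Subtype.ext
      show z * 1 * z⁻¹ = 1
      group
    · rintro ⟨y, hy⟩
      apply Subtype.ext
      apply Subtype.ext
      have hyfix : z * (y : G) * z⁻¹ = y := congrArg Subtype.val hy
      have hc : (y : G) * z = z * y := by
        calc (y : G) * z = (z * (y : G) * z⁻¹) * z := by rw [hyfix]
          _ = z * y := by group
      exact hf y y.2 hc
  rw [hfix] at hmod
  rw [Nat.card_eq_fintype_card]
  rw [Nat.odd_iff]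
  exact hmod

/-- Simplicity. -/
theorem simple_of {Q : Subgroup G} {z : G} (hL : LX z Q)
    (hodd : ∀ K₀ : Subgroup G, Odd (Nat.card ↥K₀) → Q ≤ Subgroup.normalizer (K₀ : Set G) → K₀ = ⊥)
    (hgen : ∀ N : Subgroup G, N.Normal → z ∈ N → Subgroup.centralizer ({z} : Set G) ≤ N) : IsSimpleGroup G := by
  classical
  have hF : Fact (Nat.Prime 2) := ⟨Nat.prime_two⟩
  have hnt : Nontrivial G := ⟨⟨z, 1, hL.ne_one⟩⟩
  have hmemC : ∀ x, x ∈ Subgroup.centralizer ({z} : Set G) ↔ x * z = z * x := by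
    intro x
    rw [Subgroup.mem_centralizer_iff]
    simp only [Set.mem_singleton_iff, forall_eq]
    exact eq_comm
  refine ⟨fun N hN => ?_⟩
  by_cases hzN : z ∈ N
  · right
    -- Sylow
    obtain ⟨T, hT⟩ := hL.isPGroup.exists_le_sylow
    have hT' : ∀ c ∈ (T : Subgroup G), (∀ a ∈ (T : Subgroup G), c * a = a * c) → c ≠ 1 → c = z := by
      intro c hc hca hc1
      rcases hL.cent c (fun a ha => hca a (hT ha)) with h1 | h1
      · exact absurd h1 hc1
      · exact h1
    have hTP : IsPGroup 2 ↥(T : Subgroup G) := T.isPGroup'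
    have hnT : Nontrivial ↥(T : Subgroup G) := ⟨⟨⟨z, hT hL.mem⟩, 1, fun h => hL.ne_one (congrArg Subtype.val h)⟩⟩
    have hcn := hTP.center_nontrivial
    obtain ⟨c, hc1⟩ := exists_ne (1 : Subgroup.center ↥(T : Subgroup G))
    have hcz : ((c : ↥(T : Subgroup G)) : G) = z := by
      apply hT' _ (c : ↥(T : Subgroup G)).2
      · intro a ha
        have := Subgroup.mem_center_iff.1 c.2 ⟨a, ha⟩
        exact (congrArg Subtype.val this).symm
      · intro h
        apply hc1
        apply Subtype.ext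
        apply Subtype.ext
        exact h
    have hzT : ∀ a ∈ (T : Subgroup G), z * a = a * z := by
      intro a ha
      have := Subgroup.mem_center_iff.1 c.2 ⟨a, ha⟩
      have h2 := (congrArg Subtype.val this).symm
      simp only [Subgroup.coe_mul] at h2
      rwa [hcz] at h2
    have hTC : (T : Subgroup G) ≤ Subgroup.centralizer ({z} : Set G) := fun a ha => (hmemC a).2 (hzT a ha).symm
    have hNC : Subgroup.normalizer ((T : Subgroup G) : Set G) ≤ Subgroup.centralizer ({z} : Set G) := by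
      intro n hn
      have hnn := Subgroup.mem_normalizer_iff.1 hn
      have hzTm : z ∈ (T : Subgroup G) := hT hL.mem
      have h1 : n * z * n⁻¹ ∈ (T : Subgroup G) := (hnn z).1 hzTm
      have h2 : n * z * n⁻¹ = z := by
        apply hT' _ h1
        · intro a ha
          have h3 : n⁻¹ * a * n ∈ (T : Subgroup G) := by
            have h4 := (hnn (n⁻¹ * a * n)).2 (by
              have e : n * (n⁻¹ * a * n) * n⁻¹ = a := by group
              rw [e]; exact ha)
            exact h4
          calc n * z * n⁻¹ * a = n * (z * (n⁻¹ * a * n)) * n⁻¹ := by group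
            _ = n * ((n⁻¹ * a * n) * z) * n⁻¹ := by rw [hzT _ h3]
            _ = a * (n * z * n⁻¹) := by group
        · intro h3
          apply hL.ne_one
          have : z = n⁻¹ * (n * z * n⁻¹) * n := by group
          rw [this, h3]; group
      rw [hmemC]
      calc n * z = (n * z * n⁻¹) * n := by group
        _ = z * n := by rw [h2]
    have hCN := hgen N hN hzN
    have := Sylow.normalizer_sup_eq_top' (N := N) T (hTC.trans hCN)
    rw [eq_top_iff, ← this]
    exact sup_le (hNC.trans hCN) le_rfl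
  · left
    have hQN : ∀ x ∈ N, x ∈ Q → x = 1 := by
      intro x hxN hxQ
      by_contra hx1
      have hxz : x ≠ z := fun h => hzN (h ▸ hxN)
      obtain ⟨q, hq, hqx⟩ := hL.exists_comm hxQ hx1 hxz
      apply hzN
      have h1 : q * x * q⁻¹ ∈ N := hN.conj_mem x hxN q
      rw [hqx] at h1
      have : z = z * x * x⁻¹ := by group
      rw [this]
      exact mul_mem h1 (inv_mem hxN)
    have hfp : ∀ k ∈ N, k * z = z * k → k = 1 := by
      intro k hk hkz
      have hc : ∀ q ∈ Q, k * q = q * k := by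
        intro q hq
        have h1 : k * q * k⁻¹ * q⁻¹ ∈ Q := mul_mem (hL.norm k hkz q hq) (inv_mem hq)
        have h2 : k * q * k⁻¹ * q⁻¹ ∈ N := by
          have e : k * q * k⁻¹ * q⁻¹ = k * (q * k⁻¹ * q⁻¹) := by group
          rw [e]
          exact mul_mem hk (hN.conj_mem _ (inv_mem hk) q)
        exact (Cfsg.Agent.Lib.LargeExtra.Duality.comm_eq_one_iff k q).1 (hQN _ h2 h1)
      rcases hL.cent k hc with h1 | h1
      · exact h1
      · exact absurd (h1 ▸ hk) hzN
    apply hodd N (odd_of_fpf hL.sq (fun n hn => hN.conj_mem n hn z) hfp)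
    intro q _
    rw [Subgroup.mem_normalizer_iff]
    intro n
    constructor
    · intro hn
      exact hN.conj_mem n hn q
    · intro hn
      have := hN.conj_mem _ hn q⁻¹
      have e : q⁻¹ * (q * n * q⁻¹) * q⁻¹⁻¹ = n := by group
      rwa [e] at this

end Cfsg.Agent.Lib.LargeExtra.FStar
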