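import Mathlib
import Cfsg.Agent.Lib.LargeExtra.Basic

/-!
Singular subgroups in the large extraspecial setting.
-/

set_option autoImplicit false

namespace Cfsg.Agent.Lib.LargeExtra.Singular

open Cfsg.Agent.Lib.LargeExtra.Basic

variable {G : Type*} [Group G]

/-- Bundled hypotheses on a singular subgroup `U`. -/
structure Sing (U : Subgroup G) : Prop where
  setting : ∀ u ∈ U, u ≠ 1 → SettingAt u (QQ u)
  sq : ∀ u ∈ U, u * u = 1
  orth : ∀ u ∈ U, ∀ v ∈ U, u ≠ 1 → v ≠ 1 → v ∈ QQ u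

theorem sing_of_hyps {z : G} (hz : orderOf z = 2) (hE : Cfsg.IsExtraspecial 2 ↥(QQ z))
    {U : Subgroup G} (hU2 : ∀ u ∈ U, u * u = 1)
    (hS : ∀ u ∈ U, u ≠ 1 → ∃ g : G, g * z * g⁻¹ = u)
    (hO : ∀ u ∈ U, ∀ v ∈ U, u ≠ 1 → v ≠ 1 → v ∈ QQ u) : Sing U where
  setting := by
    intro u hu hu1
    obtain ⟨g, rfl⟩ := hS u hu hu1
    exact settingAt_conj hz hE g
  sq := hU2
  orth := hO

variable {U : Subgroup G}

lemma Sing.mem_of_mem (h : Sing U) {u v : G} (hu : u ∈ U) (hv : v ∈ U) (hu1 : u ≠ 1) : v ∈ QQ u := by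
  by_cases hv1 : v = 1
  · rw [hv1]; exact one_mem _
  · exact h.orth u hu v hv hu1 hv1

lemma Sing.le_QQ (h : Sing U) {u : G} (hu : u ∈ U) (hu1 : u ≠ 1) : U ≤ QQ u :=
  fun _ hv => h.mem_of_mem hu hv hu1

lemma Sing.inv_eq (h : Sing U) {u : G} (hu : u ∈ U) : u⁻¹ = u :=
  inv_eq_of_mul_eq_one_left (h.sq u hu)

lemma Sing.comm (h : Sing U) {a b : G} (ha : a ∈ U) (hb : b ∈ U) : a * b = b * a := by
  have h1 := h.sq _ (mul_mem ha hb)
  have h2 : (a * b)⁻¹ = a * b := inv_eq_of_mul_eq_one_left h1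
  rw [mul_inv_rev, h.inv_eq ha, h.inv_eq hb] at h2
  exact h2.symm

/-- Conjugating an element of `U` by an element of `Q u` stays in `U`. -/
lemma Sing.conj_mem (h : Sing U) {u q v : G} (hu : u ∈ U) (hu1 : u ≠ 1) (hq : q ∈ QQ u) (hv : v ∈ U) :
    q * v * q⁻¹ ∈ U := by
  have hv' := h.mem_of_mem hu hv hu1
  have key : q * v * q⁻¹ = (q * v * q⁻¹ * v⁻¹) * v := by group
  rw [key]
  rcases (h.setting u hu hu1).comm q hq v hv' with h' | h'
  · rw [h', one_mul]; exact hv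
  · rw [h']; exact mul_mem hu hv

/-- The join of the `Q u`. -/
lemma Sing.iSup_le_normalizer (h : Sing U) :
    (⨆ u ∈ ((U : Set G) \ {1}), QQ u) ≤ Subgroup.normalizer (U : Set G) := by
  apply iSup₂_le
  rintro u ⟨hu, hu1⟩ q hq
  have hu1' : u ≠ 1 := by simpa using hu1
  rw [Subgroup.mem_normalizer_iff]
  intro v
  constructor
  · intro hv
    exact h.conj_mem hu hu1' hq hv
  · intro hv
    have := h.conj_mem hu hu1' (inv_mem hq) hv
    have e : q⁻¹ * (q * v * q⁻¹) * q⁻¹⁻¹ = v := by group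
    rwa [e] at this

/-- Key lemma for generators: `Q a ∩ Q b ≤ Q (a b)`. -/
lemma Sing.inter_le (h : Sing U) {a b y : G} (ha : a ∈ U) (hb : b ∈ U) (ha1 : a ≠ 1) (hb1 : b ≠ 1)
    (hab : a ≠ b) (hya : y ∈ QQ a) (hyb : y ∈ QQ b) : y ∈ QQ (a * b) := by
  have hab1 : a * b ≠ 1 := by
    intro hh
    apply hab
    have : a = b⁻¹ := eq_inv_of_mul_eq_one_left hh
    rw [this, h.inv_eq hb]
  have hS := h.setting a ha ha1
  obtain ⟨q, hq, hqb⟩ := hS.exists_comm_eq (h.orth a ha b hb ha1 hb1) hb1 (Ne.symm hab)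
  -- conjugating `Q b` by `q` gives `Q (a b)`
  have hconj : QQ (a * b) = (QQ b).map (MulAut.conj q).toMonoidHom := by
    rw [← hqb, QQ_conj]
  have h1 : q * y * q⁻¹ ∈ QQ (a * b) := by
    rw [hconj]
    exact ⟨y, hyb, rfl⟩
  have haQ : a ∈ QQ (a * b) := h.orth _ (mul_mem ha hb) a ha hab1 ha1
  have key : q * y * q⁻¹ = (q * y * q⁻¹ * y⁻¹) * y := by group
  rcases hS.comm q hq y hya with h' | h'
  · rw [key, h', one_mul] at h1
    exact h1
  · rw [key, h'] at h1
    have := mul_mem (inv_mem haQ) h1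
    simpa using this

/-- The intersection over `U#` is the intersection over any generating set. -/
theorem Sing.iInf_eq_of_closure (h : Sing U) {T : Set G} (hT : Subgroup.closure T = U)
    (hT1 : (1 : G) ∉ T) :
    (⨅ u ∈ ((U : Set G) \ {1}), QQ u) = ⨅ t ∈ T, QQ t := by
  have hTU : T ⊆ U := by rw [← hT]; exact Subgroup.subset_closure
  apply le_antisymm
  · apply le_iInf₂
    intro t ht
    refine iInf₂_le t ⟨hTU ht, ?_⟩
    intro hh
    rw [Set.mem_singleton_iff] at hh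
    exact hT1 (hh ▸ ht)
  · apply le_iInf₂
    rintro u ⟨hu, hu1⟩ y hy
    have hu1' : u ≠ 1 := by simpa using hu1
    rw [Subgroup.mem_iInf] at hy
    have hy' : ∀ t ∈ T, y ∈ QQ t := by
      intro t ht
      have := hy t
      rw [Subgroup.mem_iInf] at this
      exact this ht
    have main : ∀ w ∈ Subgroup.closure T, w = 1 ∨ y ∈ QQ w := by
      intro w hw
      induction hw using Subgroup.closure_induction with
      | mem x hx => exact Or.inr (hy' x hx)
      | one => exact Or.inl rfl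
      | mul a b ha' hb' iha ihb =>
        rw [hT] at ha' hb'
        rcases iha with rfl | iha
        · simpa using ihb
        rcases ihb with rfl | ihb
        · simpa using Or.inr iha
        by_cases ha1 : a = 1
        · subst ha1; simpa using Or.inr ihb
        by_cases hb1 : b = 1
        · subst hb1; simpa using Or.inr iha
        by_cases hab : a = b
        · subst hab; exact Or.inl (h.sq a ha')
        · exact Or.inr (h.inter_le ha' hb' ha1 hb1 hab iha ihb)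
      | inv a ha' iha =>
        rw [hT] at ha'
        rw [h.inv_eq ha']
        exact iha
    rcases main u (by rw [hT]; exact hu) with hh | hh
    · exact absurd hh hu1'
    · exact hh

/-- The subgroup of elements normalising `U` and acting trivially on `QU/U`. -/
def trivialOn (U QU : Subgroup G) : Subgroup G where
  carrier := {g | g ∈ Subgroup.normalizer (U : Set G) ∧ ∀ x ∈ QU, g * x * g⁻¹ * x⁻¹ ∈ U}
  one_mem' := ⟨one_mem _, fun x _ => by simp⟩
  mul_mem' := by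
    rintro a b ⟨ha, ha'⟩ ⟨hb, hb'⟩
    refine ⟨mul_mem ha hb, fun x hx => ?_⟩
    have e : a * b * x * (a * b)⁻¹ * x⁻¹ =
        (a * (b * x * b⁻¹ * x⁻¹) * a⁻¹) * (a * x * a⁻¹ * x⁻¹) := by group
    rw [e]
    exact mul_mem ((Subgroup.mem_normalizer_iff.1 ha _).1 (hb' x hx)) (ha' x hx)
  inv_mem' := by
    rintro a ⟨ha, ha'⟩
    refine ⟨inv_mem ha, fun x hx => ?_⟩
    have e : a⁻¹ * x * a⁻¹⁻¹ * x⁻¹ = a⁻¹ * (a * x * a⁻¹ * x⁻¹)⁻¹ * a⁻¹⁻¹ := by group
    rw [e]
    exact (Subgroup.mem_normalizer_iff.1 (inv_mem ha) _).1 (inv_mem (ha' x hx))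

/-- `L_U` acts trivially on `Q_U / U`. -/
theorem Sing.comm_mem (h : Sing U) :
    ∀ g ∈ (⨆ u ∈ ((U : Set G) \ {1}), QQ u), ∀ x ∈ (⨅ u ∈ ((U : Set G) \ {1}), QQ u),
      g * x * g⁻¹ * x⁻¹ ∈ U := by
  have hle : (⨆ u ∈ ((U : Set G) \ {1}), QQ u) ≤
      trivialOn U (⨅ u ∈ ((U : Set G) \ {1}), QQ u) := by
    apply iSup₂_le
    rintro u ⟨hu, hu1⟩ q hq
    have hu1' : u ≠ 1 := by simpa using hu1
    refine ⟨h.iSup_le_normalizer (Subgroup.mem_iSup_of_mem u (Subgroup.mem_iSup_of_mem ⟨hu, hu1⟩ hq)), ?_⟩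
    intro x hx
    have hxu : x ∈ QQ u := by
      rw [Subgroup.mem_iInf] at hx
      have := hx u
      rw [Subgroup.mem_iInf] at this
      exact this ⟨hu, hu1⟩
    rcases (h.setting u hu hu1').comm q hq x hxu with h' | h'
    · rw [h']; exact one_mem _
    · rw [h']; exact hu
  intro g hg x hx
  exact (hle hg).2 x hx

/-- Transitivity on the cosets `x U`. -/
theorem Sing.exists_conj_eq_mul [Finite G] (h : Sing U) {x u : G}
    (hx : x ∈ (⨅ u ∈ ((U : Set G) \ {1}), QQ u)) (hxU : x ∉ U) (hu : u ∈ U) :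
    ∃ g ∈ (⨆ u ∈ ((U : Set G) \ {1}), QQ u) ⊓ Subgroup.centralizer (U : Set G),
      g * x * g⁻¹ = x * u := by
  by_cases hu1 : u = 1
  · exact ⟨1, one_mem _, by simp [hu1]⟩
  have hmem : u ∈ (U : Set G) \ {1} := ⟨hu, by simpa using hu1⟩
  have hxu : x ∈ QQ u := by
    rw [Subgroup.mem_iInf] at hx
    have := hx u
    rw [Subgroup.mem_iInf] at this
    exact this hmem
  have hS := h.setting u hu hu1
  obtain ⟨q, hq, hq1, hq2⟩ := hS.exists_centralizing U (h.le_QQ hu hu1) hu hxu hxU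
  refine ⟨q, ⟨Subgroup.mem_iSup_of_mem u (Subgroup.mem_iSup_of_mem hmem hq), ?_⟩, ?_⟩
  · change q ∈ Subgroup.centralizer (U : Set G)
    rw [Subgroup.mem_centralizer_iff]
    intro y hy
    exact (hq1 y hy).symm
  · rw [hq2]
    exact (hS.central x hxu).symm

/-- Every automorphism of `U` is induced by an element of `L_U`. -/
theorem Sing.exists_conj_eq_aut [Finite G] (h : Sing U) (φ : U ≃* U) :
    ∃ g ∈ (⨆ u ∈ ((U : Set G) \ {1}), QQ u), ∀ u : U, g * (u : G) * g⁻¹ = ((φ u : U) : G) := by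
  classical
  set LU : Subgroup G := (⨆ u ∈ ((U : Set G) \ {1}), QQ u) with hLU
  have hLnorm : ∀ g ∈ LU, ∀ v ∈ U, g * v * g⁻¹ ∈ U := by
    intro g hg v hv
    exact (Subgroup.mem_normalizer_iff.1 (h.iSup_le_normalizer hg) v).1 hv
  -- the locus of agreement
  let E : LU → Subgroup U := fun g =>
    MonoidHom.eqLocus (((MulAut.conj (g : G)).toMonoidHom).comp U.subtype)
      (U.subtype.comp φ.toMonoidHom)
  have hE : ∀ (g : LU) (s : U), s ∈ E g ↔ (g : G) * (s : G) * (g : G)⁻¹ = ((φ s : U) : G) := by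
    intro g s
    rfl
  obtain ⟨g₀, hg₀⟩ := Finite.exists_max (fun g : LU => Nat.card (E g))
  by_cases htop : E g₀ = ⊤
  · refine ⟨g₀, g₀.2, fun u => ?_⟩
    have : u ∈ E g₀ := by rw [htop]; trivial
    exact (hE g₀ u).1 this
  exfalso
  obtain ⟨b, hb⟩ : ∃ b : U, b ∉ E g₀ := by
    by_contra hcon
    push Not at hcon
    exact htop (eq_top_iff.2 (fun x _ => hcon x))
  set d : G := (g₀ : G) * (b : G) * (g₀ : G)⁻¹ with hd
  have hdU : d ∈ U := hLnorm _ g₀.2 _ b.2
  set c : G := ((φ b : U) : G) with hc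
  have hcU : c ∈ U := (φ b).2
  have hdc : d ≠ c := fun hh => hb ((hE g₀ b).2 hh)
  set w : G := d * c with hw
  have hwU : w ∈ U := mul_mem hdU hcU
  have hw1 : w ≠ 1 := by
    intro hh
    apply hdc
    have : d = c⁻¹ := eq_inv_of_mul_eq_one_left hh
    rw [this, h.inv_eq hcU]
  -- S' = image of E g₀ under φ
  let S' : Subgroup G := ((E g₀).map φ.toMonoidHom).map U.subtype
  have hS'mem : ∀ s : U, s ∈ E g₀ → ((φ s : U) : G) ∈ S' := by
    intro s hs
    exact ⟨φ s, ⟨s, hs, rfl⟩, rfl⟩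
  have hS'U : S' ≤ U := by
    rintro _ ⟨a, _, rfl⟩
    exact a.2
  -- Y = S' ∪ S' w
  let Y : Subgroup G :=
    { carrier := {y | y ∈ U ∧ (y ∈ S' ∨ y * w ∈ S')}
      one_mem' := ⟨one_mem _, Or.inl (one_mem _)⟩
      mul_mem' := by
        rintro a a' ⟨ha, ha2⟩ ⟨ha', ha2'⟩
        refine ⟨mul_mem ha ha', ?_⟩
        rcases ha2 with ha2 | ha2 <;> rcases ha2' with ha2' | ha2'
        · exact Or.inl (mul_mem ha2 ha2')
        · right
          have : a * a' * w = a * (a' * w) := by group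
          rw [this]; exact mul_mem ha2 ha2'
        · right
          have : a * a' * w = a * w * a' := by
            rw [mul_assoc, mul_assoc, h.comm ha' hwU]
          rw [this]; exact mul_mem ha2 ha2'
        · left
          have : a * a' = (a * w) * (a' * w) := by
            have hww : w * w = 1 := h.sq w hwU
            calc a * a' = a * (w * w) * a' := by rw [hww, mul_one]
              _ = a * w * (w * a') := by group
              _ = a * w * (a' * w) := by rw [h.comm hwU ha']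
          rw [this]; exact mul_mem ha2 ha2'
      inv_mem' := by
        rintro a ⟨ha, ha2⟩
        change a⁻¹ ∈ U ∧ (a⁻¹ ∈ S' ∨ a⁻¹ * w ∈ S')
        rw [h.inv_eq ha]
        exact ⟨ha, ha2⟩ }
  have hYU : Y ≤ U := fun y hy => hy.1
  have hwY : w ∈ Y := ⟨hwU, Or.inr (by rw [h.sq w hwU]; exact one_mem _)⟩
  have hdY : d ∉ Y := by
    rintro ⟨_, hd2 | hd2⟩
    · obtain ⟨_, ⟨s, hs, rfl⟩, hs2⟩ := hd2
      have hs3 : (g₀ : G) * (s : G) * (g₀ : G)⁻¹ = ((φ s : U) : G) := (hE g₀ s).1 hs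
      have hs4 : (g₀ : G) * (s : G) * (g₀ : G)⁻¹ = (g₀ : G) * (b : G) * (g₀ : G)⁻¹ := by
        rw [hs3]; exact hs2
      have hs5 : (s : G) = b := mul_left_cancel (mul_right_cancel hs4)
      have hs6 : s = b := Subtype.ext hs5
      exact hb (hs6 ▸ hs)
    · have hdw : d * w = c := by
        rw [hw, ← mul_assoc, h.sq d hdU, one_mul]
      rw [hdw] at hd2
      obtain ⟨_, ⟨s, hs, rfl⟩, hs2⟩ := hd2
      have hs6 : s = b := φ.injective (Subtype.ext hs2)
      exact hb (hs6 ▸ hs)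
  have hwS := h.setting w hwU hw1
  obtain ⟨q, hq, hq1, hq2⟩ := hwS.exists_centralizing Y (hYU.trans (h.le_QQ hwU hw1)) hwY
    (h.le_QQ hwU hw1 hdU) hdY
  have hqL : q ∈ LU := by
    refine Subgroup.mem_iSup_of_mem w (Subgroup.mem_iSup_of_mem ⟨hwU, ?_⟩ hq)
    simpa using hw1
  have hwd : w * d = c := by
    rw [hw, mul_assoc, h.comm hcU hdU, ← mul_assoc, h.sq d hdU, one_mul]
  let g₁ : LU := ⟨q * g₀, mul_mem hqL g₀.2⟩
  have hle : E g₀ ≤ E g₁ := by
    intro s hs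
    rw [hE] at hs ⊢
    have hs2 : ((φ s : U) : G) ∈ Y := ⟨(φ s).2, Or.inl (hS'mem s hs)⟩
    change q * (g₀ : G) * (s : G) * (q * (g₀ : G))⁻¹ = ((φ s : U) : G)
    calc q * (g₀ : G) * (s : G) * (q * (g₀ : G))⁻¹
        = q * ((g₀ : G) * (s : G) * (g₀ : G)⁻¹) * q⁻¹ := by group
      _ = q * ((φ s : U) : G) * q⁻¹ := by rw [hs]
      _ = ((φ s : U) : G) := by rw [hq1 _ hs2]; group
  have hb1 : b ∈ E g₁ := by
    rw [hE]
    change q * (g₀ : G) * (b : G) * (q * (g₀ : G))⁻¹ = c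
    calc q * (g₀ : G) * (b : G) * (q * (g₀ : G))⁻¹
        = q * ((g₀ : G) * (b : G) * (g₀ : G)⁻¹) * q⁻¹ := by group
      _ = w * d := hq2
      _ = c := hwd
  have heq : E g₀ = E g₁ := Subgroup.eq_of_le_of_card_ge hle (hg₀ g₁)
  exact hb (heq ▸ hb1)

end Cfsg.Agent.Lib.LargeExtra.Singular
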